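import Cfsg.Agent.R2.T1.N7.P2c
import Cfsg.Agent.R2.T1.N7.Big
import Cfsg.Agent.R2.T1.N7T.T2
import Cfsg.Agent.R2.T1.N6D.T1

/-!
# S5929, `n = 7`, lift, `p = 2` (helper27)

`sev2`: `d₃, d₃₃ ∈ {20, 32}`, `d₅ = 16`; `(∗, 32)` is excluded by Scott `(3², 5, 5)`, `(20, 20)` by `noP2`; for `(32, 20)` Scott
`(3, 3², 5)` for `A₆` gives `dim V^{A₆} ≥ 6`, and `t2_false` (helper20) is the contradiction.
-/

set_option autoImplicit false
set_option maxRecDepth 100000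

namespace Cfsg.Agent.R2.T1.N7

open Equiv Equiv.Perm Module
open Cfsg Cfsg.Lie
open Cfsg.Agent.R2.T1.Odd
open Cfsg.Agent.R2.T1
open Cfsg.Agent.R2.T1.Pat2 (w5 w3 w33)
open Cfsg.Agent.H943.E7V.Block (D1 rho)
open Cfsg.Agent.H952.F4 (ev MaxAlt GenT)
open Cfsg.Agent.R2.T1.T3 (inc ct_inc)

universe u

theorem gen7d : GenT 7 {3, 3} {5} {5} :=
  Cfsg.Agent.H952.F4.Gen.genT_of (n := 5) (c[0, 2, 4] * c[1, 6, 5]) (c[0, 3, 6, 1, 2]) (by decide +kernel)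
    (by decide +kernel)
    ![[], [], [2, 0, 3, 1, 3, 0], [3, 0, 3, 0], [0, 2, 1, 3, 3, 0], [3, 1, 3, 0, 2, 0], [3, 3, 1, 2, 1]]
    (by decide +kernel) (by decide +kernel) (by decide +kernel) (by decide +kernel)

theorem ct_w33 : ((P 7 w33 : A7) : Perm (Fin 7)).cycleType = {3, 3} := by
  rw [coe_P le_rfl (by decide)]
  decide +kernel

section
variable {F : Type u} [Field F] {H : Subgroup ↥(chevE7.group F)} {φ : A7 →* ↥(chevE7.group F)} {ψ : A7 →* Gh F}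

/-- Scott's lemma for `A₇` -/
theorem scott7 {a b c : Multiset ℕ} (hg : GenT 7 a b c)
    (h0 : Representation.invariants (MonoidHom.comp (V F) ψ : Representation F A7 (D1 → F)) = ⊥) :
    ∃ x y z : A7, (x : Perm (Fin 7)).cycleType = a ∧ (y : Perm (Fin 7)).cycleType = b ∧
      (z : Perm (Fin 7)).cycleType = c ∧ ev (V F (ψ x)) 1 + ev (V F (ψ y)) 1 + ev (V F (ψ z)) 1 ≤ 56 := by
  obtain ⟨x, y, h, hx, hy, hxy⟩ := hg
  refine ⟨x, y, x * y, hx, hy, hxy, ?_⟩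
  have h := Cfsg.Agent.H952.F4.Scott.scott_form (MonoidHom.comp (V F) ψ) (x := x) (y := y) h (sf F)
    (fun v hv => sf_nondeg' hv) (fun g v w => sf_V _ v w)
  rw [finrank_V, h0, finrank_bot, mul_zero, add_zero] at h
  exact h

/-- Scott's lemma for `A₆` -/
theorem scott6 {a b c : Multiset ℕ} (hg : GenT 6 a b c) :
    ∃ x y z : A7, (x : Perm (Fin 7)).cycleType = a ∧ (y : Perm (Fin 7)).cycleType = b ∧
      (z : Perm (Fin 7)).cycleType = c ∧ ev (V F (ψ x)) 1 + ev (V F (ψ y)) 1 + ev (V F (ψ z)) 1 ≤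
        56 + 2 * finrank F ↥(inv (MonoidHom.comp (V F) ψ : Representation F A7 (D1 → F)) (Tg 7 gA6)) := by
  obtain ⟨x, y, h, hx, hy, hxy⟩ := hg
  refine ⟨inc x, inc y, inc (x * y), (ct_inc _).trans hx, (ct_inc _).trans hy, (ct_inc _).trans hxy, ?_⟩
  have h := Cfsg.Agent.H952.F4.Scott.scott_form
    (MonoidHom.comp (MonoidHom.comp (V F) ψ : Representation F A7 (D1 → F)) (inc : T3.A 6 →* T3.A 7)) (x := x) (y := y) h
    (sf F) (fun v hv => sf_nondeg' hv) (fun g v w => sf_V _ v w)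
  rw [inv_inc, finrank_V] at h
  exact h

/-- **`n = 7`, lift, characteristic 2** -/
theorem sev2 [Finite F] (hM : MaxAlt H 7 φ) (hL : Lift φ ψ) (h2 : (2 : F) = 0) : False := by
  have h3 : (3 : F) ≠ 0 := by
    intro h
    have h1 : (1 : F) = 0 := by linear_combination h - h2
    exact one_ne_zero h1
  have h5 : (5 : F) ≠ 0 := by
    intro h
    have h1 : (1 : F) = 0 := by linear_combination h - 2 * h2
    exact one_ne_zero h1
  have hψ : ∀ a, ad F (ψ a) = 1 → a = 1 := fun a ha => hM.inj (by rw [map_one, ← hL, ha])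
  have h0 := no_fixed hM (by norm_num) (by norm_num) hL
  set ρ : Representation F A7 (D1 → F) := MonoidHom.comp (V F) ψ with hρ
  have f5 : ∀ x : A7, (x : Perm (Fin 7)).cycleType = {5} → ev (ρ x) 1 = 16 := fun x hx => by
    rw [ev_five ρ hx ct_r5, ← P_w5]
    exact case_5 h5 hψ
  have f3 : ∀ x : A7, (x : Perm (Fin 7)).cycleType = {3} → ev (ρ x) 1 = ev (ρ (P 7 w3)) 1 := fun x hx => by
    rw [ev_three ρ hx ct_r3, P_w3]
  have f33 : ∀ x : A7, (x : Perm (Fin 7)).cycleType = {3, 3} → ev (ρ x) 1 = ev (ρ (P 7 w33)) 1 := fun x hx =>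
    ev_33 ρ hx ct_w33
  have c3 : ev (ρ (P 7 w3)) 1 = 2 ∨ ev (ρ (P 7 w3)) 1 = 32 ∨ ev (ρ (P 7 w3)) 1 = 20 ∨ ev (ρ (P 7 w3)) 1 = 14 :=
    case_3 h3 hψ (l := w3) (by decide) (by decide) (by decide)
  have c33 : ev (ρ (P 7 w33)) 1 = 2 ∨ ev (ρ (P 7 w33)) 1 = 32 ∨ ev (ρ (P 7 w33)) 1 = 20 ∨ ev (ρ (P 7 w33)) 1 = 14 :=
    case_3 h3 hψ (l := w33) (by decide) (by decide) (by decide)
  have c5 : ev (ρ (P 7 w5)) 1 = 16 := f5 _ (by rw [P_w5]; exact ct_r5)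
  have i3 : ev (ρ (P 7 w5)) 1 ≤ ev (ρ (P 7 w3)) 1 := by
    have h := Pat2.le_of_cert h2 (m := 5) (by norm_num) ρ Pat2.cert3 ⊤ (fun _ _ => trivial)
    rw [inf_top_eq, inf_top_eq] at h
    exact h
  have i33 : ev (ρ (P 7 w5)) 1 ≤ ev (ρ (P 7 w33)) 1 := by
    have h := Pat2.le_of_cert h2 (m := 6) (by norm_num) ρ Pat2.cert33 ⊤ (fun _ _ => trivial)
    rw [inf_top_eq, inf_top_eq] at h
    exact h
  obtain ⟨x, y, z, hx, hy, hz, hs⟩ := scott7 gen7d h0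
  have ex : ev (V F (ψ x)) 1 = ev (ρ (P 7 w33)) 1 := f33 x hx
  have ey : ev (V F (ψ y)) 1 = 16 := f5 y hy
  have ez : ev (V F (ψ z)) 1 = 16 := f5 z hz
  rw [ex, ey, ez] at hs
  have g33 : ev (ρ (P 7 w33)) 1 = 20 := by omega
  have f33' : ∀ x : A7, (x : Perm (Fin 7)).cycleType = {3, 3} → ev (ρ x) 1 = 20 := fun x hx => by rw [f33 x hx, g33]
  rcases (by omega : ev (ρ (P 7 w3)) 1 = 32 ∨ ev (ρ (P 7 w3)) 1 = 20) with g3 | g3
  · have f3' : ∀ x : A7, (x : Perm (Fin 7)).cycleType = {3} → ev (ρ x) 1 = 32 := fun x hx => by rw [f3 x hx, g3]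
    obtain ⟨x', y', z', hx', hy', hz', hs'⟩ := scott6 (F := F) (ψ := ψ) Cfsg.Agent.H952.F4.Gen.gen6b
    have ex' : ev (V F (ψ x')) 1 = 32 := f3' x' hx'
    have ey' : ev (V F (ψ y')) 1 = 20 := f33' y' hy'
    have ez' : ev (V F (ψ z')) 1 = 16 := f5 z' hz'
    rw [ex', ey', ez'] at hs'
    exact N7T.t2_false h2 hM hL f3' h0 (by omega)
  · have f3' : ∀ x : A7, (x : Perm (Fin 7)).cycleType = {3} → ev (ρ x) 1 = 20 := fun x hx => by rw [f3 x hx, g3]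
    exact noP2 hM hL h2 f3' f5 (three_le h2 (a := N6D.I2.pa) (b := N6D.I2.pa * N6D.I2.pa') (by decide +kernel)
      (by decide +kernel) (N6D.I2.ineq6 h2) f3' f33' f5)

end

end Cfsg.Agent.R2.T1.N7
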