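import Cfsg.Agent.R2.T1.N7.Grp

/-!
# S5929, `n = 7`: dimension formulas for the modules of `A_7`, `p ≠ 2, 3` or `p ∤ |T|` (helper27)
-/

set_option autoImplicit false
set_option maxRecDepth 100000

namespace Cfsg.Agent.R2.T1.N7

open Module
open Cfsg.Agent.R2.T1.Odd
open Cfsg.Agent.R2.T1.Art
open Cfsg.Agent.H952.F4 (ev)

universe u v

/-- elements of order 5 -/
def l5 : List (ℕ × ℕ) := [(0, 1), (1, 2), (2, 3), (3, 4)]

theorem r7_eq : r7 = [[], lt, l42, l3, l33, l5] := by decide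

section
variable {F : Type u} [Field F] [Finite F] {W : Type v} [AddCommGroup W] [Module F W] [FiniteDimensional F W]
  (ρ : Representation F A7 W)

omit [Finite F] in
theorem prod_ne {a b c : ℕ} (h2 : (2 : F) ≠ 0) (h3 : b = 0 ∨ (3 : F) ≠ 0) (h5 : c = 0 ∨ (5 : F) ≠ 0) :
    ((2 ^ a * 3 ^ b * 5 ^ c : ℕ) : F) ≠ 0 := by
  rw [Nat.cast_mul, Nat.cast_mul, Nat.cast_pow, Nat.cast_pow, Nat.cast_pow]
  refine mul_ne_zero (mul_ne_zero (pow_ne_zero a (by exact_mod_cast h2)) ?_) ?_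
  · rcases h3 with h | h
    · rw [h, pow_zero]; exact one_ne_zero
    · exact pow_ne_zero b (by exact_mod_cast h)
  · rcases h5 with h | h
    · rw [h, pow_zero]; exact one_ne_zero
    · exact pow_ne_zero c (by exact_mod_cast h)

theorem dimA4 (h2 : (2 : F) ≠ 0) (h3 : (3 : F) ≠ 0) : 12 * (finrank F ↥(inv ρ (Tg 7 gA4)) : ℚ) =
    om ρ 1 + 3 * om ρ (P 7 lt) + 8 * om ρ (P 7 l3) := by
  have h := dimC (n := 7) le_rfl chkG_A4 chkC_A4 len_A4 (K := 6) rfl
    (by simpa using prod_ne (F := F) (a := 2) (b := 1) (c := 0) h2 (Or.inr h3) (Or.inl rfl)) cnt_A4 ρ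
  simp only [r7_eq, Finset.sum_range_succ, Finset.sum_range_zero, List.getD_cons_zero, List.getD_cons_succ, P_nil] at h
  push_cast at h
  linear_combination h

theorem dimA5 (h2 : (2 : F) ≠ 0) (h3 : (3 : F) ≠ 0) (h5 : (5 : F) ≠ 0) : 60 * (finrank F ↥(inv ρ (Tg 7 gA5)) : ℚ) =
    om ρ 1 + 15 * om ρ (P 7 lt) + 20 * om ρ (P 7 l3) + 24 * om ρ (P 7 l5) := by
  have h := dimC (n := 7) le_rfl chkG_A5 chkC_A5 len_A5 (K := 6) rfl
    (by simpa using prod_ne (F := F) (a := 2) (b := 1) (c := 1) h2 (Or.inr h3) (Or.inr h5)) cnt_A5 ρ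
  simp only [r7_eq, Finset.sum_range_succ, Finset.sum_range_zero, List.getD_cons_zero, List.getD_cons_succ, P_nil] at h
  push_cast at h
  linear_combination h

theorem dimB5 (h2 : (2 : F) ≠ 0) (h3 : (3 : F) ≠ 0) (h5 : (5 : F) ≠ 0) : 60 * (finrank F ↥(inv ρ (Tg 7 gB5)) : ℚ) =
    om ρ 1 + 15 * om ρ (P 7 lt) + 20 * om ρ (P 7 l33) + 24 * om ρ (P 7 l5) := by
  have h := dimC (n := 7) le_rfl chkG_B5 chkC_B5 len_B5 (K := 6) rfl
    (by simpa using prod_ne (F := F) (a := 2) (b := 1) (c := 1) h2 (Or.inr h3) (Or.inr h5)) cnt_B5 ρ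
  simp only [r7_eq, Finset.sum_range_succ, Finset.sum_range_zero, List.getD_cons_zero, List.getD_cons_succ, P_nil] at h
  push_cast at h
  linear_combination h

theorem dimE4 (h2 : (2 : F) ≠ 0) (h3 : (3 : F) ≠ 0) : 36 * (finrank F ↥(inv ρ (Tg 7 gE4)) : ℚ) =
    om ρ 1 + 9 * om ρ (P 7 lt) + 18 * om ρ (P 7 l42) + 4 * om ρ (P 7 l3) + 4 * om ρ (P 7 l33) := by
  have h := dimC (n := 7) le_rfl chkG_E4 chkC_E4 len_E4 (K := 6) rfl
    (by simpa using prod_ne (F := F) (a := 2) (b := 2) (c := 0) h2 (Or.inr h3) (Or.inl rfl)) cnt_E4 ρ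
  simp only [r7_eq, Finset.sum_range_succ, Finset.sum_range_zero, List.getD_cons_zero, List.getD_cons_succ, P_nil] at h
  push_cast at h
  linear_combination h

theorem dimA6 (h2 : (2 : F) ≠ 0) (h3 : (3 : F) ≠ 0) (h5 : (5 : F) ≠ 0) : 360 * (finrank F ↥(inv ρ (Tg 7 gA6)) : ℚ) =
    om ρ 1 + 45 * om ρ (P 7 lt) + 90 * om ρ (P 7 l42) + 40 * om ρ (P 7 l3) + 40 * om ρ (P 7 l33) +
      144 * om ρ (P 7 l5) := by
  have h := dimC (n := 7) le_rfl chkG_A6 chkC_A6 len_A6 (K := 6) rfl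
    (by simpa using prod_ne (F := F) (a := 3) (b := 2) (c := 1) h2 (Or.inr h3) (Or.inr h5)) cnt_A6 ρ
  simp only [r7_eq, Finset.sum_range_succ, Finset.sum_range_zero, List.getD_cons_zero, List.getD_cons_succ, P_nil] at h
  push_cast at h
  linear_combination h

omit [Finite F] [FiniteDimensional F W] in
theorem om_t : om ρ (P 7 lt) = 2 * (ev (ρ (P 7 lt)) 1 : ℚ) - finrank F W := by
  rw [om_prime ρ Nat.prime_two (orderOf_P (m := 7) le_rfl (by decide +kernel))]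
  norm_num

omit [Finite F] [FiniteDimensional F W] in
theorem om_3 : om ρ (P 7 l3) = (3 * (ev (ρ (P 7 l3)) 1 : ℚ) - finrank F W) / 2 := by
  rw [om_prime ρ Nat.prime_three (orderOf_P (m := 7) le_rfl (by decide +kernel))]
  norm_num

omit [Finite F] [FiniteDimensional F W] in
theorem om_33 : om ρ (P 7 l33) = (3 * (ev (ρ (P 7 l33)) 1 : ℚ) - finrank F W) / 2 := by
  rw [om_prime ρ Nat.prime_three (orderOf_P (m := 7) le_rfl (by decide +kernel))]
  norm_num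

omit [Finite F] [FiniteDimensional F W] in
theorem om_5 : om ρ (P 7 l5) = (5 * (ev (ρ (P 7 l5)) 1 : ℚ) - finrank F W) / 4 := by
  rw [om_prime ρ Nat.prime_five (orderOf_P (m := 7) le_rfl (by decide +kernel))]
  norm_num

omit [Finite F] [FiniteDimensional F W] in
theorem om_42 : om ρ (P 7 l42) = 2 * (ev (ρ (P 7 l42)) 1 : ℚ) - (ev (ρ (P 7 lt)) 1 : ℚ) := by
  have h : P 7 l42 ^ 2 = P 7 [(1, 2), (4, 5)] * P 7 lt * (P 7 [(1, 2), (4, 5)])⁻¹ := by
    rw [← mul_inv_eq_iff_eq_mul, inv_inv, ← P_pwl (n := 7) (m := 7) le_rfl (by decide),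
      ← P_append (m := 7) le_rfl (by decide) (by decide), ← P_append (m := 7) le_rfl (by decide) (by decide),
      P_eq_iff (m := 7) le_rfl (by decide) (by decide)]
    decide
  rw [om_four ρ (orderOf_P (m := 7) le_rfl (by decide +kernel)), h, Cfsg.Agent.H944.E6T.ev_conj]

end

end Cfsg.Agent.R2.T1.N7
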