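import Cfsg.Agent.R2.T1.N7.Tab
import Cfsg.Agent.R2.T1.Odd.No32

/-!
# S5929, `n = 7`: point stabilizers, fixed vectors (helper27)

* `mem_A6`, `mem_A5` : `Tg 7 gA6`, `Tg 7 gA5` are the stabilizers of `6`, of `5, 6`;
* `three_u`, `two_u` : if `W^X = 0` then `3 dim W^{A6} ≤ dim W^{A4}`, `2 dim W^{A6} ≤ dim W^{A5}`;
* `orbit_le` : the dimension of the submodule generated by a fixed vector.
-/

set_option autoImplicit false
set_option maxRecDepth 100000

namespace Cfsg.Agent.R2.T1.N7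

open Equiv Equiv.Perm Module
open Cfsg.Agent.R2.T1.Odd

universe u v

abbrev A7 := ↥(alternatingGroup (Fin 7))

theorem two_trans {i j : Fin 7} (h : i ≠ j) : ∃ g : A7, (g : Perm (Fin 7)) 0 = i ∧ (g : Perm (Fin 7)) 1 = j := by
  have h0 : swap 0 i j ≠ 0 := by
    intro h1
    have h2 := congrArg (swap 0 i) h1
    rw [swap_apply_self, swap_apply_left] at h2
    exact h h2.symm
  have e0 : (swap 0 i * swap 1 (swap 0 i j)) 0 = i := by
    rw [Perm.mul_apply, swap_apply_of_ne_of_ne (by decide) h0.symm, swap_apply_left]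
  have e1 : (swap 0 i * swap 1 (swap 0 i j)) 1 = j := by
    rw [Perm.mul_apply, swap_apply_left, swap_apply_self]
  generalize swap 0 i * swap 1 (swap 0 i j) = σ at e0 e1
  by_cases hs : sign σ = 1
  · exact ⟨⟨σ, mem_alternatingGroup.2 hs⟩, e0, e1⟩
  · have h3 : sign (σ * swap 2 3) = 1 := by
      rw [Perm.sign_mul, sign_swap (by decide), (Int.units_eq_one_or _).resolve_left hs]
      decide
    refine ⟨⟨σ * swap 2 3, mem_alternatingGroup.2 h3⟩, ?_, ?_⟩
    · show (σ * swap 2 3 : Perm (Fin 7)) 0 = i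
      rw [Perm.mul_apply, swap_apply_of_ne_of_ne (by decide) (by decide), e0]
    · show (σ * swap 2 3 : Perm (Fin 7)) 1 = j
      rw [Perm.mul_apply, swap_apply_of_ne_of_ne (by decide) (by decide), e1]

theorem mul_ap (g k : A7) (i : Fin 7) : ((g * k : A7) : Perm (Fin 7)) i = (g : Perm (Fin 7)) ((k : Perm (Fin 7)) i) := rfl

theorem inv_ap {g : A7} {i j : Fin 7} (h : (g : Perm (Fin 7)) i = j) : ((g⁻¹ : A7) : Perm (Fin 7)) j = i := by
  rw [Subgroup.coe_inv, Perm.inv_eq_iff_eq, h]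

theorem two_trans' {i j i' j' : Fin 7} (h : i ≠ j) (h' : i' ≠ j') :
    ∃ g : A7, (g : Perm (Fin 7)) i = i' ∧ (g : Perm (Fin 7)) j = j' := by
  obtain ⟨x, hx0, hx1⟩ := two_trans h
  obtain ⟨y, hy0, hy1⟩ := two_trans h'
  exact ⟨y * x⁻¹, by rw [mul_ap, inv_ap hx0, hy0], by rw [mul_ap, inv_ap hx1, hy1]⟩

theorem trans1 (i j : Fin 7) : ∃ g : A7, (g : Perm (Fin 7)) i = j := by
  obtain ⟨a, ha⟩ : ∃ a : Fin 7, a ≠ i := by
    by_cases h : i = 0
    · exact ⟨1, by rw [h]; decide⟩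
    · exact ⟨0, fun h' => h h'.symm⟩
  obtain ⟨b, hb⟩ : ∃ a : Fin 7, a ≠ j := by
    by_cases h : j = 0
    · exact ⟨1, by rw [h]; decide⟩
    · exact ⟨0, fun h' => h h'.symm⟩
  obtain ⟨g, hg, -⟩ := two_trans' ha.symm hb.symm
  exact ⟨g, hg⟩

/-- the values of `P` -/
theorem P_ap {l : List (ℕ × ℕ)} (hl : vl 7 l = true) (i : Fin 7) : (((P 7 l : A7) : Perm (Fin 7)) i).val = ap l i.val := by
  rw [coe_P le_rfl hl, pm_apply (vl_iff.1 hl).2]

theorem P_fix {l : List (ℕ × ℕ)} (hl : vl 7 l = true) {i : Fin 7} (h : ap l i.val = i.val) :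
    ((P 7 l : A7) : Perm (Fin 7)) i = i := Fin.ext (by rw [P_ap hl, h])

/-- the stabilizer of a point -/
def S1 (i : Fin 7) : Subgroup A7 where
  carrier := {g | (g : Perm (Fin 7)) i = i}
  one_mem' := rfl
  mul_mem' := fun {g k} hg hk => by
    show ((g * k : A7) : Perm (Fin 7)) i = i
    rw [mul_ap]
    have hg' : (g : Perm (Fin 7)) i = i := hg
    have hk' : (k : Perm (Fin 7)) i = i := hk
    rw [hk', hg']
  inv_mem' := fun {g} hg => inv_ap hg

theorem mem_S1 {i : Fin 7} {g : A7} : g ∈ S1 i ↔ (g : Perm (Fin 7)) i = i := Iff.rfl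

theorem card_A7 : Nat.card A7 = 2520 := by
  have h : 2 * Nat.card A7 = 5040 := Cfsg.Agent.R2.T1.card_alt (n := 7) (by norm_num)
  omega

/-- the index of a point stabilizer -/
theorem index_S1 (i : Fin 7) : (S1 i).index = 7 := by
  have h : (S1 i).index = Nat.card (Fin 7) := by
    let f : A7 ⧸ S1 i → Fin 7 := Quotient.lift (fun g : A7 => (g : Perm (Fin 7)) i) (by
      intro a b hab
      have h1 : a⁻¹ * b ∈ S1 i := QuotientGroup.leftRel_apply.1 hab
      rw [mem_S1, mul_ap] at h1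
      have h2 : (a : Perm (Fin 7)) (((a⁻¹ : A7) : Perm (Fin 7)) ((b : Perm (Fin 7)) i)) = (a : Perm (Fin 7)) i :=
        congrArg (fun j => (a : Perm (Fin 7)) j) h1
      rw [← mul_ap, mul_inv_cancel] at h2
      exact h2.symm)
    refine Nat.card_eq_of_bijective f ⟨?_, ?_⟩
    · intro x y
      refine Quotient.inductionOn₂ x y fun a b h => ?_
      have h1 : (a : Perm (Fin 7)) i = (b : Perm (Fin 7)) i := h
      refine Quotient.sound (QuotientGroup.leftRel_apply.2 ?_)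
      rw [mem_S1, mul_ap, ← h1, inv_ap rfl]
    · intro j
      obtain ⟨g, hg⟩ := trans1 i j
      exact ⟨Quotient.mk _ g, hg⟩
  rw [h, Nat.card_eq_fintype_card, Fintype.card_fin]

theorem card_S1 (i : Fin 7) : Nat.card ↥(S1 i) = 360 := by
  have h := (S1 i).card_mul_index
  rw [index_S1, card_A7] at h
  omega

theorem Tg_le {gens : List (List (ℕ × ℕ))} {T : Subgroup A7} (h : ∀ g ∈ gens, P 7 g ∈ T) : Tg 7 gens ≤ T := by
  unfold Tg
  rw [Subgroup.closure_le]
  rintro x ⟨g, hg, rfl⟩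
  exact h g hg

theorem natcard_Tg {gens : List (List (ℕ × ℕ))} {els : List (List ℕ)} (h : chkG 7 gens els = true) :
    Nat.card ↥(Tg 7 gens) = els.length := by
  have := Fintype.ofFinite ↥(Tg 7 gens)
  rw [Nat.card_eq_fintype_card, card_Tg le_rfl h]

/-- **`Tg 7 gA6` is the stabilizer of `6`** -/
theorem Tg_A6 : Tg 7 gA6 = S1 6 := by
  refine Subgroup.eq_of_le_of_card_ge (Tg_le ?_) ?_
  · intro g hg
    have h : ∀ g ∈ gA6, vl 7 g = true ∧ ap g 6 = 6 := by decide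
    exact mem_S1.2 (P_fix (h g hg).1 (h g hg).2)
  · rw [natcard_Tg chkG_A6, len_A6, card_S1]

theorem mem_A6 {g : A7} : g ∈ Tg 7 gA6 ↔ (g : Perm (Fin 7)) 6 = 6 := by rw [Tg_A6, mem_S1]

theorem le_A6 {gens : List (List (ℕ × ℕ))} (h : gens.all (fun g => vl 7 g && Nat.beq (ap g 6) 6) = true) :
    Tg 7 gens ≤ Tg 7 gA6 := by
  refine Tg_le fun g hg => ?_
  have h1 := List.all_eq_true.1 h g hg
  rw [Bool.and_eq_true] at h1
  exact mem_A6.2 (P_fix h1.1 (Nat.eq_of_beq_eq_true h1.2))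

section mod
variable {F : Type u} [Field F] {W : Type v} [AddCommGroup W] [Module F W] {ρ : Representation F A7 W}

/-- a vector fixed by `A6`: `ρ g a` depends only on `g 6` -/
theorem mv {a : W} (ha : a ∈ inv ρ (Tg 7 gA6)) {g g' : A7} (h : (g : Perm (Fin 7)) 6 = (g' : Perm (Fin 7)) 6) :
    ρ g a = ρ g' a := by
  have h1 : g'⁻¹ * g ∈ Tg 7 gA6 := by
    rw [mem_A6, mul_ap, h, inv_ap rfl]
  have h2 := ha _ h1
  rw [map_mul, Module.End.mul_apply] at h2
  have h3 := congrArg (ρ g') h2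
  rw [← Module.End.mul_apply, ← map_mul, mul_inv_cancel, map_one, Module.End.one_apply] at h3
  exact h3

/-- coincidence of two translates -/
theorem all_fixed {a : W} (ha : a ∈ inv ρ (Tg 7 gA6)) {s s' : A7} (hs : (s : Perm (Fin 7)) 6 ≠ (s' : Perm (Fin 7)) 6)
    (h : ρ s a = ρ s' a) (g : A7) : ρ g a = a := by
  by_cases hg : (g : Perm (Fin 7)) 6 = 6
  · exact ha g (mem_A6.2 hg)
  · obtain ⟨k, hk, hk'⟩ := two_trans' hs hg
    have h1 : ρ (k * s) a = ρ g a := mv ha (by rw [mul_ap, hk])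
    have h2 : ρ (k * s') a = ρ 1 a := mv ha (by rw [mul_ap, hk']; rfl)
    rw [map_one, Module.End.one_apply] at h2
    rw [← h1, map_mul, Module.End.mul_apply, h, ← Module.End.mul_apply, ← map_mul, h2]

theorem zero_of (h0 : Representation.invariants ρ = ⊥) {a : W} (ha : a ∈ inv ρ (Tg 7 gA6)) {s s' : A7}
    (hs : (s : Perm (Fin 7)) 6 ≠ (s' : Perm (Fin 7)) 6) (h : ρ s a = ρ s' a) : a = 0 := by
  have h1 : a ∈ Representation.invariants ρ := fun g => all_fixed ha hs h g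
  rw [h0] at h1
  exact (Submodule.mem_bot F).1 h1

/-- `6 ↦ 4`, `6 ↦ 5` -/
def k4 : List (ℕ × ℕ) := [(6, 4), (0, 1)]
def k5 : List (ℕ × ℕ) := [(6, 5), (0, 1)]

theorem k4_ap : ((P 7 k4 : A7) : Perm (Fin 7)) 6 = 4 := Fin.ext (by rw [P_ap (by decide)]; decide)

theorem k5_ap : ((P 7 k5 : A7) : Perm (Fin 7)) 6 = 5 := Fin.ext (by rw [P_ap (by decide)]; decide)

theorem fix_mul {g k : A7} {j : Fin 7} (hk : (k : Perm (Fin 7)) 6 = j) (hg : (g : Perm (Fin 7)) j = j) {a : W}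
    (ha : a ∈ inv ρ (Tg 7 gA6)) : ρ g (ρ k a) = ρ k a := by
  rw [← Module.End.mul_apply, ← map_mul]
  exact mv ha (by rw [mul_ap, hk, hg])

theorem mem_inv_Tg {gens : List (List (ℕ × ℕ))} {w : W} (h : ∀ g ∈ gens, ρ (P 7 g) w = w) : w ∈ inv ρ (Tg 7 gens) := by
  unfold Tg
  rw [mem_inv_closure]
  rintro x ⟨g, hg, rfl⟩
  exact h g hg

/-- the map `(a, b, c) ↦ k4 a + k5 b + c` -/
noncomputable def ph3 (ρ : Representation F A7 W) :
    (↥(inv ρ (Tg 7 gA6)) × ↥(inv ρ (Tg 7 gA6))) × ↥(inv ρ (Tg 7 gA6)) →ₗ[F] W :=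
  (((ρ (P 7 k4)).comp (inv ρ (Tg 7 gA6)).subtype).coprod ((ρ (P 7 k5)).comp (inv ρ (Tg 7 gA6)).subtype)).coprod
    (inv ρ (Tg 7 gA6)).subtype

theorem ph3_apply (a b c : ↥(inv ρ (Tg 7 gA6))) :
    ph3 ρ ((a, b), c) = ρ (P 7 k4) a.1 + ρ (P 7 k5) b.1 + c.1 := by
  simp [ph3]

/-- the map `(b, c) ↦ k5 b + c` -/
noncomputable def ph2 (ρ : Representation F A7 W) : ↥(inv ρ (Tg 7 gA6)) × ↥(inv ρ (Tg 7 gA6)) →ₗ[F] W :=
  ((ρ (P 7 k5)).comp (inv ρ (Tg 7 gA6)).subtype).coprod (inv ρ (Tg 7 gA6)).subtype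

theorem ph2_apply (b c : ↥(inv ρ (Tg 7 gA6))) : ph2 ρ (b, c) = ρ (P 7 k5) b.1 + c.1 := by
  simp [ph2]

theorem ph2_inj (h0 : Representation.invariants ρ = ⊥) : Function.Injective (ph2 ρ) := by
  rw [← LinearMap.ker_eq_bot, LinearMap.ker_eq_bot']
  rintro ⟨b, c⟩ h
  rw [ph2_apply] at h
  have ht : vl 7 [(5, 0), (0, 1)] = true := by decide
  have t6 : ((P 7 [(5, 0), (0, 1)] : A7) : Perm (Fin 7)) 6 = 6 := P_fix ht (by decide)
  have h1 := congrArg (ρ (P 7 [(5, 0), (0, 1)])) h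
  rw [map_add, map_zero, c.2 _ (mem_A6.2 t6), ← h] at h1
  have h2 := add_right_cancel h1
  rw [← Module.End.mul_apply, ← map_mul] at h2
  have hb : b.1 = 0 := by
    refine zero_of h0 b.2 ?_ h2
    rw [mul_ap, k5_ap]
    intro h3
    have h4 := congrArg Fin.val h3
    rw [P_ap ht] at h4
    exact absurd h4 (by decide)
  rw [hb, map_zero, zero_add] at h
  exact Prod.ext (Subtype.ext hb) (Subtype.ext h)

theorem ph3_inj (h0 : Representation.invariants ρ = ⊥) : Function.Injective (ph3 ρ) := by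
  rw [← LinearMap.ker_eq_bot, LinearMap.ker_eq_bot']
  rintro ⟨⟨a, b⟩, c⟩ h
  rw [ph3_apply] at h
  have ht : vl 7 [(4, 0), (0, 1)] = true := by decide
  have t6 : ((P 7 [(4, 0), (0, 1)] : A7) : Perm (Fin 7)) 6 = 6 := P_fix ht (by decide)
  have t5 : ((P 7 [(4, 0), (0, 1)] : A7) : Perm (Fin 7)) 5 = 5 := P_fix ht (by decide)
  have h1 := congrArg (ρ (P 7 [(4, 0), (0, 1)])) h
  rw [map_add, map_add, map_zero, c.2 _ (mem_A6.2 t6), fix_mul k5_ap t5 b.2, ← h] at h1
  have h2 := add_right_cancel (add_right_cancel h1)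
  rw [← Module.End.mul_apply, ← map_mul] at h2
  have ha : a.1 = 0 := by
    refine zero_of h0 a.2 ?_ h2
    rw [mul_ap, k4_ap]
    intro h3
    have h4 := congrArg Fin.val h3
    rw [P_ap ht] at h4
    exact absurd h4 (by decide)
  rw [ha, map_zero, zero_add] at h
  have h5 : ph2 ρ (b, c) = ph2 ρ 0 := by rw [ph2_apply, h, map_zero]
  have h6 := ph2_inj h0 h5
  have h7 : b = 0 := congrArg Prod.fst h6
  have h8 : c = 0 := congrArg Prod.snd h6
  have h9 : a = 0 := Subtype.ext ha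
  rw [h7, h8, h9]
  rfl

variable [FiniteDimensional F W]

theorem three_u (h0 : Representation.invariants ρ = ⊥) :
    3 * finrank F ↥(inv ρ (Tg 7 gA6)) ≤ finrank F ↥(inv ρ (Tg 7 gA4)) := by
  have h1 : ∀ x, ph3 ρ x ∈ inv ρ (Tg 7 gA4) := by
    rintro ⟨⟨a, b⟩, c⟩
    rw [ph3_apply]
    refine mem_inv_Tg fun g hg => ?_
    have h : ∀ g ∈ gA4, vl 7 g = true ∧ ap g 4 = 4 ∧ ap g 5 = 5 ∧ ap g 6 = 6 := by decide
    obtain ⟨h1, h4, h5, h6⟩ := h g hg
    rw [map_add, map_add, fix_mul k4_ap (P_fix h1 h4) a.2, fix_mul k5_ap (P_fix h1 h5) b.2,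
      c.2 _ (mem_A6.2 (P_fix h1 h6))]
  have h2 := LinearMap.finrank_le_finrank_of_injective (f := (ph3 ρ).codRestrict _ h1)
    (fun x y h => ph3_inj h0 (congrArg Subtype.val h))
  rw [Module.finrank_prod, Module.finrank_prod] at h2
  omega

theorem two_u (h0 : Representation.invariants ρ = ⊥) :
    2 * finrank F ↥(inv ρ (Tg 7 gA6)) ≤ finrank F ↥(inv ρ (Tg 7 gA5)) := by
  have h1 : ∀ x, ph2 ρ x ∈ inv ρ (Tg 7 gA5) := by
    rintro ⟨b, c⟩
    rw [ph2_apply]
    refine mem_inv_Tg fun g hg => ?_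
    have h : ∀ g ∈ gA5, vl 7 g = true ∧ ap g 5 = 5 ∧ ap g 6 = 6 := by decide
    obtain ⟨h1, h5, h6⟩ := h g hg
    rw [map_add, fix_mul k5_ap (P_fix h1 h5) b.2, c.2 _ (mem_A6.2 (P_fix h1 h6))]
  have h2 := LinearMap.finrank_le_finrank_of_injective (f := (ph2 ρ).codRestrict _ h1)
    (fun x y h => ph2_inj h0 (congrArg Subtype.val h))
  rw [Module.finrank_prod] at h2
  omega

end mod

section orb
variable {F : Type u} [Field F] {W : Type v} [AddCommGroup W] [Module F W] {G : Type*} [Group G] [Finite G]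

/-- the submodule generated by a vector fixed by `T` has dimension at most the index of `T` -/
theorem orbit_le (ρ : Representation F G W) (T : Subgroup G) {w : W} (hw : w ∈ inv ρ T) :
    finrank F ↥(Submodule.span F (Set.range fun g => ρ g w)) ≤ T.index := by
  let f : G ⧸ T → W := Quotient.lift (fun g : G => ρ g w) (by
    intro a b hab
    have h1 := hw _ (QuotientGroup.leftRel_apply.1 hab)
    have h2 := congrArg (ρ a) h1
    rw [← Module.End.mul_apply, ← map_mul, mul_inv_cancel_left] at h2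
    exact h2.symm)
  have h1 : (Set.range fun g => ρ g w) = Set.range f := by
    ext x
    constructor
    · rintro ⟨g, rfl⟩
      exact ⟨Quotient.mk _ g, rfl⟩
    · rintro ⟨y, rfl⟩
      refine Quotient.inductionOn y fun g => ⟨g, rfl⟩
  have := Fintype.ofFinite (G ⧸ T)
  rw [h1, Subgroup.index, Nat.card_eq_fintype_card]
  exact finrank_range_le_card f

omit [Finite G] in
theorem orbit_stable (ρ : Representation F G W) (w : W) (g : G) {x : W}
    (hx : x ∈ Submodule.span F (Set.range fun g => ρ g w)) : ρ g x ∈ Submodule.span F (Set.range fun g => ρ g w) := by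
  induction hx using Submodule.span_induction with
  | mem x h =>
    obtain ⟨k, rfl⟩ := h
    refine Submodule.subset_span ⟨g * k, ?_⟩
    show ρ (g * k) w = ρ g (ρ k w)
    rw [map_mul, Module.End.mul_apply]
  | zero => rw [map_zero]; exact zero_mem _
  | add x y _ _ hx hy => rw [map_add]; exact add_mem hx hy
  | smul c x _ hx => rw [map_smul]; exact Submodule.smul_mem _ _ hx

end orb

end Cfsg.Agent.R2.T1.N7
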