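import Cfsg.Agent.R2.T1.N6D.Two
import Cfsg.Agent.R2.T1.T3.Perm

/-!
# S5929, `n = 7`, `p = 2`: the inequality of `A₆` for self-dual modules with fixed vectors (helper27)

`ineq_fix` : `4 (dim M^a + dim M^b) + 12 dim M^c ≤ 5 dim M + 30 dim M^X`, from `Ineq` applied to `U^⊥ / (U ∩ U^⊥)`, `U = M^X`.
-/

set_option autoImplicit false
set_option maxRecDepth 100000

namespace Cfsg.Agent.R2.T1.N7.P2

open Module
open Cfsg.Agent.H952.F4 (ev)
open Cfsg.Agent.R2.T1.N6D (Ineq exists_avg ev_quot exists_rep)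

universe u v

section gen
variable {F : Type u} [Field F] {M : Type v} [AddCommGroup M] [Module F M] {G : Type*} [Group G]
  (ρ : Representation F G M)

/-- `K` with trivial action on `M/K` -/
theorem ev_sub_triv [FiniteDimensional F M] {N : ℕ} (hN : (N : F) ≠ 0) {T : Module.End F M} (hT : T ^ N = 1)
    {K : Submodule F M} (hK : ∀ k ∈ K, T k ∈ K) (hK2 : ∀ m, T m - m ∈ K) {T' : Module.End F ↥K}
    (hT' : ∀ k : ↥K, (T' k : M) = T k) : ev T' 1 + finrank F M = ev T 1 + finrank F ↥K := by
  have h1 : Module.End.eigenspace T 1 ⊔ K = ⊤ := by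
    rw [eq_top_iff]
    intro m _
    obtain ⟨m', h1, h2⟩ := exists_avg hN hT (hK2 m) hK
    rw [Submodule.mem_sup]
    refine ⟨m', ?_, m - m', ?_, add_sub_cancel _ _⟩
    · rw [Module.End.mem_eigenspace_iff, one_smul]
      exact h1
    · rw [← neg_sub]
      exact K.neg_mem h2
  have h2 := Submodule.finrank_sup_add_finrank_inf_eq (Module.End.eigenspace T 1) K
  rw [h1, finrank_top] at h2
  have h3 : finrank F ↥(Module.End.eigenspace T 1 ⊓ K) = ev T' 1 := by
    unfold ev
    let f : ↥(Module.End.eigenspace T' 1) →ₗ[F] M := K.subtype.comp (Module.End.eigenspace T' 1).subtype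
    have hf : Function.Injective f := fun x y h => Subtype.ext (Subtype.ext h)
    have hr : LinearMap.range f = Module.End.eigenspace T 1 ⊓ K := by
      ext x
      rw [LinearMap.mem_range, Submodule.mem_inf, Module.End.mem_eigenspace_iff, one_smul]
      constructor
      · rintro ⟨⟨k, hk⟩, rfl⟩
        rw [Module.End.mem_eigenspace_iff, one_smul] at hk
        refine ⟨?_, k.2⟩
        show T (k : M) = k
        rw [← hT', hk]
      · rintro ⟨h4, h5⟩
        refine ⟨⟨⟨x, h5⟩, ?_⟩, rfl⟩
        rw [Module.End.mem_eigenspace_iff, one_smul]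
        exact Subtype.ext (by rw [hT']; exact h4)
    rw [← hr, LinearMap.finrank_range_of_inj hf]
  rw [h3] at h2
  unfold ev at h2 ⊢
  omega

/-- **vectors which are fixed modulo fixed vectors are fixed** -/
theorem fix_mod (h3 : (3 : F) ≠ 0) (hgen : ∀ K : Subgroup G, (∀ g, g ^ 3 = 1 → g ∈ K) → K = ⊤) {m : M}
    (hm : ∀ g, ρ g m - m ∈ ρ.invariants) : m ∈ ρ.invariants := by
  let K : Subgroup G :=
    { carrier := {g | ρ g m = m}
      one_mem' := by
        show ρ 1 m = m
        rw [map_one]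
        rfl
      mul_mem' := fun {g k} hg hk => by
        show ρ (g * k) m = m
        rw [map_mul, Module.End.mul_apply]
        have hg' : ρ g m = m := hg
        have hk' : ρ k m = m := hk
        rw [hk', hg']
      inv_mem' := fun {g} hg => by
        show ρ g⁻¹ m = m
        have hg' : ρ g m = m := hg
        have h1 := congrArg (ρ g⁻¹) hg'
        rw [← Module.End.mul_apply, ← map_mul, inv_mul_cancel, map_one, Module.End.one_apply] at h1
        exact h1.symm }
  have hK : K = ⊤ := by
    refine hgen K fun g hg => ?_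
    show ρ g m = m
    have h1 := hm g g
    have h2 : ρ g (ρ g m) = ρ g m + (ρ g m - m) := by
      rw [map_sub, sub_eq_iff_eq_add] at h1
      rw [h1, add_comm]
    have h4 := hm g g
    have h5 : ρ (g ^ 3) m = m := by rw [hg, map_one, Module.End.one_apply]
    rw [pow_succ, pow_two, map_mul, map_mul, Module.End.mul_apply, Module.End.mul_apply, h2, map_add, h4, h2] at h5
    have h6 : (3 : F) • (ρ g m - m) = 0 := by
      have e : (3 : F) • (ρ g m - m) = (ρ g m + (ρ g m - m) + (ρ g m - m)) - m := by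
        have e3 : (3 : F) = 1 + 1 + 1 := by norm_num
        rw [e3, add_smul, add_smul, one_smul]
        abel
      rw [e, h5, sub_self]
    exact sub_eq_zero.1 ((smul_eq_zero.1 h6).resolve_left h3)
  intro g
  have h1 : g ∈ K := by
    rw [hK]
    trivial
  exact h1

end gen

section main
variable {F : Type u} [Field F] {M : Type u} [AddCommGroup M] [Module F M] [FiniteDimensional F M]

/-- **the inequality for self-dual modules with fixed vectors** -/
theorem ineq_fix (h2 : (2 : F) = 0) {a b c : ↥(alternatingGroup (Fin 6))} (ha : a ^ 3 = 1) (hb : b ^ 3 = 1)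
    (hc : c ^ 5 = 1) (hI : Ineq F a b c)
    (hgen : ∀ K : Subgroup ↥(alternatingGroup (Fin 6)), (∀ g, g ^ 3 = 1 → g ∈ K) → K = ⊤)
    (ρ : Representation F ↥(alternatingGroup (Fin 6)) M) (B : M →ₗ[F] M →ₗ[F] F)
    (hZ : ∀ y, (∀ x, B x y = 0) → y = 0) (hs : ∀ x y, B x y = 0 → B y x = 0)
    (hi : ∀ g x y, B (ρ g x) (ρ g y) = B x y) :
    4 * (ev (ρ a) 1 + ev (ρ b) 1) + 12 * ev (ρ c) 1 ≤ 5 * finrank F M + 30 * finrank F ↥ρ.invariants := by
  have h3 : (3 : F) ≠ 0 := by
    intro h
    have h1 : (1 : F) = 0 := by linear_combination h - h2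
    exact one_ne_zero h1
  have h5 : (5 : F) ≠ 0 := by
    intro h
    have h1 : (1 : F) = 0 := by linear_combination h - 2 * h2
    exact one_ne_zero h1
  let Φ : Submodule F (Module.Dual F M) := ρ.invariants.map B.flip
  let K : Submodule F M := Φ.dualCoannihilator
  have hK : ∀ x, x ∈ K ↔ ∀ y ∈ ρ.invariants, B x y = 0 := by
    intro x
    show x ∈ Φ.dualCoannihilator ↔ _
    rw [Submodule.mem_dualCoannihilator]
    constructor
    · intro h y hy
      exact h (B.flip y) (Submodule.mem_map_of_mem hy)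
    · rintro h _ ⟨y, hy, rfl⟩
      exact h y hy
  have hi' : ∀ g x y, B (ρ g x) y = B x (ρ g⁻¹ y) := by
    intro g x y
    rw [← hi g x (ρ g⁻¹ y), ← Module.End.mul_apply (ρ g) (ρ g⁻¹), ← map_mul, mul_inv_cancel, map_one,
      Module.End.one_apply]
  have hKs : ∀ g, K ≤ K.comap (ρ g) := by
    intro g x hx
    rw [Submodule.mem_comap, hK]
    intro y hy
    rw [hi', hy g⁻¹]
    exact (hK x).1 hx y hy
  have hKt : ∀ g m, ρ g m - m ∈ K := by
    intro g m
    rw [hK]
    intro y hy
    rw [map_sub, LinearMap.sub_apply, hi', hy g⁻¹, sub_self]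
  have hKK : ∀ z, (∀ k ∈ K, B k z = 0) → z ∈ ρ.invariants := by
    intro z hz
    have h1 : B.flip z ∈ K.dualAnnihilator := by
      rw [Submodule.mem_dualAnnihilator]
      intro k hk
      exact hz k hk
    have h4 : Φ.dualCoannihilator.dualAnnihilator = Φ := Subspace.dualCoannihilator_dualAnnihilator_eq
    have h6 : B.flip z ∈ Φ := by
      rw [← h4]
      exact h1
    obtain ⟨y, hy, hyz⟩ := h6
    have h7 : y - z = 0 := by
      refine hZ _ fun x => ?_
      have h8 := congrArg (fun f : Module.Dual F M => f x) hyz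
      have h9 : B x y = B x z := h8
      rw [map_sub, h9, sub_self]
    rw [← sub_eq_zero.1 h7]
    exact hy
  have hdim := Subspace.finrank_add_finrank_dualCoannihilator_eq (K := F) (V := M) Φ
  have hdimΦ : finrank F ↥Φ ≤ finrank F ↥ρ.invariants := Submodule.finrank_map_le _ _
  let ρK : Representation F ↥(alternatingGroup (Fin 6)) ↥K := ρ.subrepresentation K hKs
  have hρK : ∀ g (k : ↥K), (ρK g k : M) = ρ g k := fun g k => rfl
  let Z : Submodule F ↥K := ρ.invariants.comap K.subtype
  have hZinv : ∀ z ∈ Z, ∀ g, ρK g z = z := by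
    intro z hz g
    exact Subtype.ext (by rw [hρK]; exact hz g)
  have hZs : ∀ g, Z ≤ Z.comap (ρK g) := by
    intro g z hz
    rw [Submodule.mem_comap, hZinv z hz]
    exact hz
  have hdimZ : finrank F ↥Z ≤ finrank F ↥ρ.invariants := by
    let f : ↥Z →ₗ[F] ↥ρ.invariants := (K.subtype.comp Z.subtype).codRestrict _ fun z => z.2
    refine LinearMap.finrank_le_finrank_of_injective (f := f) fun x y h => ?_
    have h' : ((f x : ↥ρ.invariants) : M) = (f y : ↥ρ.invariants) := by rw [h]
    exact Subtype.ext (Subtype.ext h')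
  let ρ' : Representation F ↥(alternatingGroup (Fin 6)) (↥K ⧸ Z) := ρK.quotient Z hZs
  have hρ' : ∀ g (k : ↥K), ρ' g (Submodule.Quotient.mk k) = Submodule.Quotient.mk (ρK g k) := fun g k => rfl
  have e1 : ρ'.invariants = ⊥ := by
    rw [eq_bot_iff]
    intro q hq
    obtain ⟨k, rfl⟩ := Submodule.Quotient.mk_surjective Z q
    rw [Submodule.mem_bot, Submodule.Quotient.mk_eq_zero]
    refine fix_mod ρ h3 hgen fun g => ?_
    have h1 := hq g
    rw [hρ', Submodule.Quotient.eq] at h1
    exact h1
  have e2 : ∀ f : Module.Dual F (↥K ⧸ Z), (∀ g m, f (ρ' g m) = f m) → f = 0 := by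
    intro f hf
    obtain ⟨f', hf'⟩ := LinearMap.exists_extend (f.comp Z.mkQ)
    obtain ⟨y, hy⟩ := exists_rep B (Z := ⊥) (fun y => by
      rw [Submodule.mem_bot]
      constructor
      · exact hZ y
      · rintro rfl x
        rw [map_zero]) hs f' (fun z hz => by
        rw [(Submodule.mem_bot _).1 hz, map_zero])
    have hk : ∀ k : ↥K, B k y = f (Submodule.Quotient.mk k) := by
      intro k
      rw [← hy]
      exact congrArg (fun f : Module.Dual F ↥K => f k) hf'
    have hyU : y ∈ ρ.invariants := by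
      refine fix_mod ρ h3 hgen fun g => ?_
      refine hKK _ fun k hkK => ?_
      rw [map_sub]
      have h1 : B k (ρ g y) = B (ρ g⁻¹ k) y := by rw [hi', inv_inv]
      have h4 := hk (ρK g⁻¹ ⟨k, hkK⟩)
      have h6 := hk ⟨k, hkK⟩
      rw [hρK, ← hρ', hf] at h4
      rw [h1, h4, h6, sub_self]
    refine LinearMap.ext fun q => ?_
    obtain ⟨k, rfl⟩ := Submodule.Quotient.mk_surjective Z q
    rw [← hk, LinearMap.zero_apply]
    exact (hK k).1 k.2 y hyU
  have e3 := hI (↥K ⧸ Z) ρ' e1 e2
  have hq := Submodule.finrank_quotient_add_finrank Z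
  have key : ∀ (g : ↥(alternatingGroup (Fin 6))) (N : ℕ), (N : F) ≠ 0 → g ^ N = 1 →
      ev (ρ g) 1 + finrank F ↥K = ev (ρ' g) 1 + finrank F ↥Z + finrank F M := by
    intro g N hN hg
    have h1 : (ρ g) ^ N = 1 := by rw [← map_pow, hg, map_one]
    have h1K : (ρK g) ^ N = 1 := by rw [← map_pow, hg, map_one]
    have h4 := ev_sub_triv (T := ρ g) (T' := ρK g) hN h1 (K := K) (fun k hk => hKs g hk) (hKt g) (hρK g)
    have h6 := ev_quot (T := ρK g) (T' := ρ' g) hN h1K (Z := Z) (fun z hz => hZinv z hz g) (hρ' g)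
    omega
  have ka := key a 3 (by exact_mod_cast h3) ha
  have kb := key b 3 (by exact_mod_cast h3) hb
  have kc := key c 5 (by exact_mod_cast h5) hc
  have hdim' : finrank F ↥Φ + finrank F ↥K = finrank F M := hdim
  omega

end main

end Cfsg.Agent.R2.T1.N7.P2
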