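import Cfsg.Agent.R2.T1.N7.P2a
import Cfsg.Agent.R2.T1.N7.P2b

/-!
# S5929, `n = 7`, `p = 2`: the pattern (20, 20, 16) (helper27)

* `conj_rep`, `ev_three`, `ev_33`, `ev_five` : the classes of types 3, 3², 5 of `A₇`;
* `le_two` : `dim V^{A₆} ≤ 2` if `d₃ = 20`, `d₅ = 16`;
* `three_le` : `3 ≤ dim V^{A₆}` if `d₃ = d₃₃ = 20`, `d₅ = 16`, from the inequality for `A₆`;
* `noP2` : contradiction.
-/

set_option autoImplicit false
set_option maxRecDepth 100000

namespace Cfsg.Agent.R2.T1.N7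

open Equiv Equiv.Perm Module
open Cfsg Cfsg.Lie
open Cfsg.Agent.R2.T1.Odd
open Cfsg.Agent.R2.T1
open Cfsg.Agent.R2.T1.Pat2 (w5 w3)
open Cfsg.Agent.H943.E7V.Block (D1 rho)
open Cfsg.Agent.H952.F4 (ev MaxAlt)
open Cfsg.Agent.R2.T1.T3 (inc ct_inc inc_last exists_inc)

universe u

/-- conjugacy in the alternating group -/
theorem conj_rep {r τ : Perm (Fin 7)} (hτ : sign τ = -1) (hc : τ * r * τ⁻¹ = r) {x : Perm (Fin 7)}
    (h : x.cycleType = r.cycleType) : ∃ σ, sign σ = 1 ∧ σ * r * σ⁻¹ = x := by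
  obtain ⟨σ, hσ⟩ := isConj_iff.1 (isConj_iff_cycleType_eq.2 h.symm)
  rcases Int.units_eq_one_or (sign σ) with h1 | h1
  · exact ⟨σ, h1, hσ⟩
  · refine ⟨σ * τ, by rw [Perm.sign_mul, h1, hτ]; decide, ?_⟩
    rw [← hσ]
    calc σ * τ * r * (σ * τ)⁻¹ = σ * (τ * r * τ⁻¹) * σ⁻¹ := by group
      _ = σ * r * σ⁻¹ := by rw [hc]

section
variable {F : Type u} [Field F] {W : Type*} [AddCommGroup W] [Module F W] (ρ : Representation F A7 W)

theorem ev_cj (g x : A7) : ev (ρ (g * x * g⁻¹)) 1 = ev (ρ x) 1 := by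
  have h1 : ∀ (g : A7) (v : W), ρ g⁻¹ (ρ g v) = v := fun g v => by
    rw [← Module.End.mul_apply, ← map_mul, inv_mul_cancel, map_one, Module.End.one_apply]
  have h1' : ∀ (g : A7) (v : W), ρ g (ρ g⁻¹ v) = v := fun g v => by
    rw [← Module.End.mul_apply, ← map_mul, mul_inv_cancel, map_one, Module.End.one_apply]
  let e : W ≃ₗ[F] W := LinearEquiv.ofLinearMap (ρ g) (ρ g⁻¹) (LinearMap.ext fun v => h1' g v) (LinearMap.ext fun v => h1 g v)
  have h2 : Module.End.eigenspace (ρ (g * x * g⁻¹)) 1 = (Module.End.eigenspace (ρ x) 1).map (e : W →ₗ[F] W) := by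
    ext v
    rw [Module.End.mem_eigenspace_iff, one_smul, Submodule.mem_map]
    constructor
    · intro hv
      refine ⟨ρ g⁻¹ v, ?_, h1' g v⟩
      rw [Module.End.mem_eigenspace_iff, one_smul]
      rw [map_mul, map_mul, Module.End.mul_apply, Module.End.mul_apply] at hv
      have h3 := congrArg (ρ g⁻¹) hv
      rw [h1] at h3
      exact h3
    · rintro ⟨w, hw, rfl⟩
      rw [Module.End.mem_eigenspace_iff, one_smul] at hw
      show ρ (g * x * g⁻¹) (ρ g w) = ρ g w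
      rw [map_mul, map_mul, Module.End.mul_apply, Module.End.mul_apply, h1, hw]
  unfold ev
  rw [h2]
  exact LinearEquiv.finrank_map_eq e _

theorem ev_rep {r : A7} {τ : Perm (Fin 7)} (hτ : sign τ = -1) (hc : τ * (r : Perm (Fin 7)) * τ⁻¹ = r) {x : A7}
    (h : (x : Perm (Fin 7)).cycleType = (r : Perm (Fin 7)).cycleType) : ev (ρ x) 1 = ev (ρ r) 1 := by
  obtain ⟨σ, h1, h2⟩ := conj_rep hτ hc h
  have h3 : x = (⟨σ, mem_alternatingGroup.2 h1⟩ : A7) * r * (⟨σ, mem_alternatingGroup.2 h1⟩ : A7)⁻¹ := Subtype.ext h2.symm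
  rw [h3, ev_cj]

def r3 : A7 := ⟨swap 0 1 * swap 1 2, by rw [mem_alternatingGroup]; decide⟩
def r33 : A7 := ⟨swap 0 1 * swap 1 2 * (swap 3 4 * swap 4 5), by rw [mem_alternatingGroup]; decide⟩
def r5 : A7 := ⟨swap 0 1 * swap 1 2 * swap 2 3 * swap 3 4, by rw [mem_alternatingGroup]; decide⟩

theorem ct_r3 : (r3 : Perm (Fin 7)).cycleType = {3} := by decide +kernel
theorem ct_r33 : (r33 : Perm (Fin 7)).cycleType = {3, 3} := by decide +kernel
theorem ct_r5 : (r5 : Perm (Fin 7)).cycleType = {5} := by decide +kernel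

theorem ev_three {x y : A7} (hx : (x : Perm (Fin 7)).cycleType = {3}) (hy : (y : Perm (Fin 7)).cycleType = {3}) :
    ev (ρ x) 1 = ev (ρ y) 1 := by
  have e : ∀ x : A7, (x : Perm (Fin 7)).cycleType = {3} → ev (ρ x) 1 = ev (ρ r3) 1 := fun x hx =>
    ev_rep ρ (r := r3) (τ := swap 3 4) (sign_swap (by decide)) (by decide +kernel) (hx.trans ct_r3.symm)
  rw [e x hx, e y hy]

theorem ev_33 {x y : A7} (hx : (x : Perm (Fin 7)).cycleType = {3, 3}) (hy : (y : Perm (Fin 7)).cycleType = {3, 3}) :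
    ev (ρ x) 1 = ev (ρ y) 1 := by
  have e : ∀ x : A7, (x : Perm (Fin 7)).cycleType = {3, 3} → ev (ρ x) 1 = ev (ρ r33) 1 := fun x hx =>
    ev_rep ρ (r := r33) (τ := swap 0 3 * swap 1 4 * swap 2 5) (by decide +kernel) (by decide +kernel) (hx.trans ct_r33.symm)
  rw [e x hx, e y hy]

theorem ev_five {x y : A7} (hx : (x : Perm (Fin 7)).cycleType = {5}) (hy : (y : Perm (Fin 7)).cycleType = {5}) :
    ev (ρ x) 1 = ev (ρ y) 1 := by
  have e : ∀ x : A7, (x : Perm (Fin 7)).cycleType = {5} → ev (ρ x) 1 = ev (ρ r5) 1 := fun x hx =>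
    ev_rep ρ (r := r5) (τ := swap 5 6) (sign_swap (by decide)) (by decide +kernel) (hx.trans ct_r5.symm)
  rw [e x hx, e y hy]

theorem P_w5 : P 7 w5 = r5 := by
  apply Subtype.ext
  rw [coe_P le_rfl cA.2.1]
  decide +kernel

theorem P_w3 : P 7 w3 = r3 := by
  apply Subtype.ext
  rw [coe_P le_rfl cA.2.2.1]
  decide +kernel

/-- the fixed vectors of `A₆` -/
theorem inv_inc : Representation.invariants (MonoidHom.comp ρ (inc : T3.A 6 →* T3.A 7)) = inv ρ (Tg 7 gA6) := by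
  ext v
  constructor
  · intro h g hg
    obtain ⟨g', rfl⟩ := exists_inc (n := 6) g (mem_A6.1 hg)
    exact h g'
  · intro h g
    exact h _ (mem_A6.2 (inc_last g))

/-- **at most 2** -/
theorem le_two [FiniteDimensional F W] (h2 : (2 : F) = 0) (h0 : Representation.invariants ρ = ⊥)
    (h3 : ∀ x : A7, (x : Perm (Fin 7)).cycleType = {3} → ev (ρ x) 1 = 20)
    (h5 : ∀ x : A7, (x : Perm (Fin 7)).cycleType = {5} → ev (ρ x) 1 = 16) :
    finrank F ↥(inv ρ (Tg 7 gA6)) ≤ 2 := by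
  have h1 := five_two_le (ρ := ρ) h2 h0
  rw [P_w5, P_w3, h3 _ ct_r3, h5 _ ct_r5] at h1
  omega

end

theorem gen3 (K : Subgroup ↥(alternatingGroup (Fin 6))) (h : ∀ g, g ^ 3 = 1 → g ∈ K) : K = ⊤ := by
  have h1 : alternatingGroup (Fin 6) ≤ K.map (alternatingGroup (Fin 6)).subtype := by
    refine le_trans (le_of_eq closure_three_cycles_eq_alternating.symm) ?_
    rw [Subgroup.closure_le]
    intro σ hσ
    have hs : sign σ = 1 := hσ.sign
    refine ⟨⟨σ, mem_alternatingGroup.2 hs⟩, h _ (Subtype.ext ?_), rfl⟩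
    show σ ^ 3 = 1
    rw [← hσ.orderOf, pow_orderOf_eq_one]
  rw [eq_top_iff]
  intro g _
  obtain ⟨g', hg', h2⟩ := h1 g.2
  have h3 : g' = g := Subtype.ext h2
  rw [← h3]
  exact hg'

section
variable {F : Type u} [Field F] {H : Subgroup ↥(chevE7.group F)} {φ : A7 →* ↥(chevE7.group F)} {ψ : A7 →* Gh F}

/-- **at least 3** -/
theorem three_le (h2 : (2 : F) = 0) {a b : ↥(alternatingGroup (Fin 6))}
    (ha : (a : Perm (Fin 6)).cycleType = {3}) (hb : (b : Perm (Fin 6)).cycleType = {3, 3}) (hI : N6D.Ineq F a b N6D.z5)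
    (h3 : ∀ x : A7, (x : Perm (Fin 7)).cycleType = {3} → ev (V F (ψ x)) 1 = 20)
    (h33 : ∀ x : A7, (x : Perm (Fin 7)).cycleType = {3, 3} → ev (V F (ψ x)) 1 = 20)
    (h5 : ∀ x : A7, (x : Perm (Fin 7)).cycleType = {5} → ev (V F (ψ x)) 1 = 16) :
    3 ≤ finrank F ↥(inv (MonoidHom.comp (V F) ψ : Representation F A7 (D1 → F)) (Tg 7 gA6)) := by
  have hz : (N6D.z5 : Perm (Fin 6)).cycleType = {5} := by decide +kernel
  have hpow : ∀ {g : ↥(alternatingGroup (Fin 6))}, ∀ N : ℕ, (∀ k ∈ (g : Perm (Fin 6)).cycleType, k ∣ N) → g ^ N = 1 := by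
    intro g N hN
    apply Subtype.ext
    show (g : Perm (Fin 6)) ^ N = 1
    rw [← orderOf_dvd_iff_pow_eq_one, ← lcm_cycleType, Multiset.lcm_dvd]
    exact hN
  have h1 := P2.ineq_fix h2 (a := a) (b := b) (c := N6D.z5) (hpow 3 (by rw [ha]; simp)) (hpow 3 (by rw [hb]; simp))
    (hpow 5 (by rw [hz]; simp)) hI gen3
    (MonoidHom.comp (MonoidHom.comp (V F) ψ : Representation F A7 (D1 → F)) (inc : T3.A 6 →* T3.A 7)) (sf F)
    (fun y h => sf_nondeg h) (fun x y h => by rw [sf_swap, h, neg_zero]) (fun g x y => sf_V _ x y)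
  rw [inv_inc, finrank_V] at h1
  have ea : ev (V F (ψ (inc a))) 1 = 20 := h3 _ ((ct_inc a).trans ha)
  have eb : ev (V F (ψ (inc b))) 1 = 20 := h33 _ ((ct_inc b).trans hb)
  have ec : ev (V F (ψ (inc N6D.z5))) 1 = 16 := h5 _ ((ct_inc _).trans hz)
  have h4 : 4 * (ev (V F (ψ (inc a))) 1 + ev (V F (ψ (inc b))) 1) + 12 * ev (V F (ψ (inc N6D.z5))) 1 ≤
      5 * 56 + 30 * finrank F ↥(inv (MonoidHom.comp (V F) ψ : Representation F A7 (D1 → F)) (Tg 7 gA6)) := h1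
  rw [ea, eb, ec] at h4
  omega

/-- **the pattern (20, 20, 16) is impossible** -/
theorem noP2 [Finite F] (hM : MaxAlt H 7 φ) (hL : Lift φ ψ) (h2 : (2 : F) = 0)
    (h3 : ∀ x : A7, (x : Perm (Fin 7)).cycleType = {3} → ev (V F (ψ x)) 1 = 20)
    (h5 : ∀ x : A7, (x : Perm (Fin 7)).cycleType = {5} → ev (V F (ψ x)) 1 = 16)
    (h6 : 3 ≤ finrank F ↥(inv (MonoidHom.comp (V F) ψ : Representation F A7 (D1 → F)) (Tg 7 gA6))) : False := by
  have h0 := no_fixed hM (by norm_num) (by norm_num) hL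
  have h1 := le_two (MonoidHom.comp (V F) ψ : Representation F A7 (D1 → F)) h2 h0 h3 h5
  omega

end

end Cfsg.Agent.R2.T1.N7
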