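import Cfsg.Agent.R2.T1.N7.Big
import Cfsg.Agent.R2.T1.N6L.Bc3
import Cfsg.Agent.R2.T1.E5.Six
import Cfsg.Agent.R2.T1.N6L.Sc
import Cfsg.Agent.R2.T1.N6R.A6
import Cfsg.Agent.H251.E6.Gen7
import Cfsg.Agent.H251.E6.Up

/-!
# S5929, `n = 7`, `p = 3`: the rows of the tables (helper11)

* `five_le_four` : `dim M^x ≤ dim M^y` for a module of `A₆` in characteristic 3, `x` of order 5, `y` of order 4;
* `conj7` : conjugacy in `A₇`;
* `row2`, `row5`, `row7`, `row4` : the rows of elements of `A₇` in a lift;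
* `scott247`, `scott247L` : Scott's lemma.
-/

set_option autoImplicit false
set_option maxRecDepth 100000

namespace Cfsg.Agent.R2.T1.N7

open Equiv Equiv.Perm Module Cfsg Cfsg.Lie
open Cfsg.Agent.H943.E7V.Block (D1)
open Cfsg.Agent.H952.F4 (ev MaxAlt GenT)
open Cfsg.Agent.H944.E6T (ev_conj)
open Cfsg.Agent.R2.T1.Odd (ev_rat emb_rat emb_pow_one)
open Cfsg.Agent.R2.T1.N6L

universe u v

/-- **`A₆` in characteristic 3** -/
theorem five_le_four {K : Type u} [Field K] [IsAlgClosed K] [CharP K 3] {M : Type v} [AddCommGroup M] [Module K M]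
    [FiniteDimensional K M] (ρ : Representation K ↥(alternatingGroup (Fin 6)) M) {x y : ↥(alternatingGroup (Fin 6))}
    (hx : orderOf x = 5) (hy : orderOf y = 4) : ev (ρ x) 1 ≤ ev (ρ y) 1 := by
  classical
  obtain ⟨π, hs, hk⟩ := exists_pi card_F9
  obtain ⟨ι⟩ := exists_iota K
  obtain ⟨g, ζ, -, -, hζ⟩ := lift5 ι card_F9 hs hk hx
  obtain ⟨n, na, nb, m, l, h⟩ := exists_muK (golden hζ) hx ρ
  rw [h.five x hx, h.four y hy]
  omega

/-- conjugacy in `A₇`, if an odd permutation commutes with the representative -/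
theorem conj7 {r g : A7} (hct : (r : Perm (Fin 7)).cycleType = (g : Perm (Fin 7)).cycleType)
    {κ : Perm (Fin 7)} (hκ : sign κ = -1) (hc : κ * r = r * κ) : IsConj r g := by
  obtain ⟨σ, hσ⟩ := isConj_iff.1 (isConj_iff_cycleType_eq.2 hct)
  rcases Int.units_eq_one_or (sign σ) with h3 | h3
  · exact isConj_iff.2 ⟨⟨σ, h3⟩, Subtype.ext hσ⟩
  · refine isConj_iff.2 ⟨⟨σ * κ, ?_⟩, Subtype.ext ?_⟩
    · rw [mem_alternatingGroup, map_mul, h3, hκ]; rfl
    · change σ * κ * (r : Perm (Fin 7)) * (σ * κ)⁻¹ = g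
      rw [← hσ]
      calc σ * κ * (r : Perm (Fin 7)) * (σ * κ)⁻¹ = σ * (κ * r) * κ⁻¹ * σ⁻¹ := by group
        _ = σ * (r * κ) * κ⁻¹ * σ⁻¹ := by rw [hc]
        _ = _ := by group

/-- rationality: `z` is conjugate to `z ^ a` in `A_n` if this holds for a permutation of the same type -/
theorem rat7 {r g : A7} {z : A7} {a : ℕ} (hct : (r : Perm (Fin 7)).cycleType = (z : Perm (Fin 7)).cycleType)
    (hg : g * r * g⁻¹ = r ^ a) : ∃ k : A7, k * z * k⁻¹ = z ^ a := by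
  obtain ⟨σ, hσ⟩ := isConj_iff.1 (isConj_iff_cycleType_eq.2 hct)
  refine ⟨⟨σ * g * σ⁻¹, ?_⟩, Subtype.ext ?_⟩
  · rw [mem_alternatingGroup, map_mul, map_mul, map_inv, mem_alternatingGroup.1 g.2, mul_one, mul_inv_cancel]
  · show σ * (g : Perm (Fin 7)) * σ⁻¹ * (z : Perm (Fin 7)) * (σ * (g : Perm (Fin 7)) * σ⁻¹)⁻¹ = (z : Perm (Fin 7)) ^ a
    have h1 : (g : Perm (Fin 7)) * r * (g : Perm (Fin 7))⁻¹ = (r : Perm (Fin 7)) ^ a := congrArg Subtype.val hg
    rw [← hσ, conj_pow, ← h1]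
    group

/-- elements of `A₇` -/
def mk7 (g : Perm (Fin 7)) (h : sign g = 1) : A7 := ⟨g, mem_alternatingGroup.2 h⟩

theorem ord7 (t : A7) : orderOf t = (t : Perm (Fin 7)).cycleType.lcm := by
  rw [lcm_cycleType, Subgroup.orderOf_coe]

section rows
variable {F : Type u} [Field F] {ψ : A7 →* Gh F}

theorem evV_conj {r g : A7} (h : IsConj r g) : ev (V F (ψ g)) 1 = ev (V F (ψ r)) 1 := by
  obtain ⟨c, rfl⟩ := isConj_iff.1 h
  rw [show ψ (c * r * c⁻¹) = ψ c * ψ r * (ψ c)⁻¹ by rw [← map_inv, ← map_mul, ← map_mul]]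
  exact ev_conj (V F) (ψ c) (ψ r) 1

variable [Finite F] (hψ : ∀ a, ad F (ψ a) = 1 → a = 1)

include hψ in
theorem psi_ne {a : A7} (ha : a ≠ 1) : ψ a ≠ 1 := fun h => ha (hψ a (by rw [h, map_one]))

include hψ in
/-- involutions -/
theorem row2 (h2 : (2 : F) ≠ 0) {x : A7} (hx : orderOf x = 2) :
    (ev (V F (ψ x)) 1 = 32 ∨ ev (V F (ψ x)) 1 = 24) ∧ ev (L F (ψ x)) 1 = 69 := by
  refine two h2 (by rw [← map_mul, ← pow_two, ← hx, pow_orderOf_eq_one, map_one]) fun h => ?_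
  rw [hψ x h, orderOf_one] at hx
  omega

include hψ in
/-- elements of order 5 -/
theorem row5 (h5 : (5 : F) ≠ 0) {x : A7} (hx : (x : Perm (Fin 7)).cycleType = {5}) :
    ev (V F (ψ x)) 1 = 16 ∧ ev (L F (ψ x)) 1 = 33 := by
  have ho : orderOf x = 5 := by rw [ord7, hx]; decide
  obtain ⟨k, hk⟩ := rat7 (r := mk7 (swap 0 1 * swap 1 2 * (swap 2 3 * swap 3 4)) (by decide))
    (g := mk7 (swap 1 2 * swap 2 4 * swap 4 3 * swap 5 6) (by decide)) (z := x) (a := 2) (by rw [hx]; decide +kernel)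
    (by decide)
  have hx5 : ψ x ^ 5 = 1 := by rw [← map_pow, ← ho, pow_orderOf_eq_one, map_one]
  have hx1 : ψ x ≠ 1 := psi_ne hψ fun h => by
    rw [h, orderOf_one] at ho
    omega
  have hg : ψ k * ψ x * (ψ k)⁻¹ = ψ x ^ 2 := by rw [← map_inv, ← map_mul, ← map_mul, hk, map_pow]
  have h5' : ((5 : ℕ) : F) ≠ 0 := by exact_mod_cast h5
  obtain ⟨p, hpp, hp, hcop⟩ := exists_char h5'
  obtain ⟨ζ, hζ, P, hP, h1⟩ := pat chk5 (by norm_num) p hcop hx5
  have e1 := ev_rat (V (AlgebraicClosure F)) (N := 5) (a := 2) (b := 3) (emb_pow_one (algebraMap F _) hx5)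
    hζ.pow_eq_one (by norm_num) (by norm_num) (emb_rat _ hg) 1
  have h2 := (h1 1 (by norm_num)).1
  have h3 := (h1 3 (by norm_num)).1
  have h0 := (h1 0 (by norm_num)).1
  have l0 := (h1 0 (by norm_num)).2
  rw [pow_zero, ev_V_one] at h0
  rw [pow_zero, ev_L_one] at l0
  rw [h2, one_mul, h3] at e1
  have key : ∀ P ∈ T5, P.1.getD 0 0 = 56 ∨ (P.1.getD 0 0 = 16 ∧ P.2.getD 0 0 = 33) ∨ P.1.getD 1 0 ≠ P.1.getD 3 0 := by
    decide
  rcases key P hP with h | h | h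
  · exact absurd (eq_one_of_ev (h0.trans h)) hx1
  · exact ⟨h0.trans h.1, l0.trans h.2⟩
  · exact absurd e1 h

include hψ in
/-- elements of order 7 -/
theorem row7 (h7 : (7 : F) ≠ 0) {x : A7} (hx : (x : Perm (Fin 7)).cycleType = {7}) :
    (ev (V F (ψ x)) 1 = 2 ∧ ev (L F (ψ x)) 1 = 31) ∨ (ev (V F (ψ x)) 1 = 8 ∧ ev (L F (ψ x)) 1 = 19) ∨
      (ev (V F (ψ x)) 1 = 20 ∧ ev (L F (ψ x)) 1 = 37) := by
  have ho : orderOf x = 7 := by rw [ord7, hx]; decide
  obtain ⟨k, hk⟩ := rat7 (r := mk7 (swap 0 1 * swap 1 2 * (swap 2 3 * swap 3 4) * (swap 4 5 * swap 5 6)) (by decide))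
    (g := mk7 (swap 1 2 * swap 2 4 * (swap 3 6 * swap 6 5)) (by decide)) (z := x) (a := 2) (by rw [hx]; decide +kernel)
    (by decide)
  have hx5 : ψ x ^ 7 = 1 := by
    have h0 := pow_orderOf_eq_one x
    rw [ho] at h0
    rw [← map_pow, h0, map_one]
  have hx1 : ψ x ≠ 1 := psi_ne hψ fun h => by
    rw [h, orderOf_one] at ho
    omega
  have hg : ψ k * ψ x * (ψ k)⁻¹ = ψ x ^ 2 := by rw [← map_inv, ← map_mul, ← map_mul, hk, map_pow]
  have h5' : ((7 : ℕ) : F) ≠ 0 := by exact_mod_cast h7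
  obtain ⟨p, hpp, hp, hcop⟩ := exists_char h5'
  obtain ⟨ζ, hζ, P, hP, h1⟩ := pat chk7 (by norm_num) p hcop hx5
  have e := fun k => ev_rat (V (AlgebraicClosure F)) (N := 7) (a := 2) (b := 4) (emb_pow_one (algebraMap F _) hx5)
    hζ.pow_eq_one (by norm_num) (by norm_num) (emb_rat _ hg) k
  have e1 := e 1
  have e4 := e 4
  rw [one_mul, (h1 1 (by norm_num)).1, (h1 4 (by norm_num)).1] at e1
  rw [pow_mod_eq hζ (4 * 4), show 4 * 4 % 7 = 2 by norm_num, (h1 4 (by norm_num)).1, (h1 2 (by norm_num)).1] at e4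
  have h0 := (h1 0 (by norm_num)).1
  have l0 := (h1 0 (by norm_num)).2
  rw [pow_zero, ev_V_one] at h0
  rw [pow_zero, ev_L_one] at l0
  have key : ∀ P ∈ T7, P.1.getD 1 0 ≠ P.1.getD 4 0 ∨ P.1.getD 4 0 ≠ P.1.getD 2 0 ∨ P.1.getD 0 0 = 56 ∨
      (P.1.getD 0 0 = 2 ∧ P.2.getD 0 0 = 31) ∨ (P.1.getD 0 0 = 8 ∧ P.2.getD 0 0 = 19) ∨
      (P.1.getD 0 0 = 20 ∧ P.2.getD 0 0 = 37) := by decide
  rcases key P hP with h | h | h | h | h | h
  · exact absurd e1 h
  · exact absurd e4 h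
  · exact absurd (eq_one_of_ev (h0.trans h)) hx1
  · exact Or.inl ⟨h0.trans h.1, l0.trans h.2⟩
  · exact Or.inr (Or.inl ⟨h0.trans h.1, l0.trans h.2⟩)
  · exact Or.inr (Or.inr ⟨h0.trans h.1, l0.trans h.2⟩)

include hψ in
/-- elements of order 4, characteristic 3 -/
theorem row4 (h3 : (3 : F) = 0) {x : A7} (hx : (x : Perm (Fin 7)).cycleType = {4, 2}) :
    ev (L F (ψ x)) 1 = 67 ∨ ev (L F (ψ x)) 1 = 49 ∨
      (ev (V F (ψ x)) 1 = 20 ∧ ev (L F (ψ x)) 1 = 39 ∧ ev (V F (ψ (x * x))) 1 = 32) ∨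
      (ev (V F (ψ x)) 1 = 16 ∧ ev (L F (ψ x)) 1 = 35 ∧ ev (V F (ψ (x * x))) 1 = 32) := by
  have h2 : (2 : F) ≠ 0 := by
    intro h2
    have h1 : (1 : F) = 0 := by linear_combination h3 - h2
    exact one_ne_zero h1
  have h5 : (5 : F) ≠ 0 := by
    intro h5
    have h1 : (1 : F) = 0 := by linear_combination 2 * h3 - h5
    exact one_ne_zero h1
  have h4 : ((4 : ℕ) : F) ≠ 0 := by
    have : ((4 : ℕ) : F) = 2 * 2 := by norm_num
    rw [this]
    exact mul_ne_zero h2 h2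
  have hF3 := charP_three h3
  have hK3 : CharP (AlgebraicClosure F) 3 :=
    charP_of_injective_algebraMap (algebraMap F (AlgebraicClosure F)).injective 3
  -- the inequality
  have hle : 16 ≤ ev (V F (ψ x)) 1 := by
    have e5 : (H251.E6.up N6R.r5 : Perm (Fin 7)).cycleType = {5} := by
      rw [H251.E6.type_up]
      decide +kernel
    have e4 : (H251.E6.up N6R.r4 : Perm (Fin 7)).cycleType = {4, 2} := by
      rw [H251.E6.type_up]
      decide +kernel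
    have h1 := five_le_four (K := AlgebraicClosure F)
      (MonoidHom.comp (V (AlgebraicClosure F)) ((emb (algebraMap F (AlgebraicClosure F))).comp (ψ.comp H251.E6.up)))
      (x := N6R.r5) (y := N6R.r4) (by rw [N6R.ord6]; decide +kernel) (by rw [N6R.ord6]; decide +kernel)
    change ev (V (AlgebraicClosure F) (emb (algebraMap F (AlgebraicClosure F)) (ψ (H251.E6.up N6R.r5)))) 1 ≤
      ev (V (AlgebraicClosure F) (emb (algebraMap F (AlgebraicClosure F)) (ψ (H251.E6.up N6R.r4)))) 1 at h1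
    rw [ev_V_one, ev_V_one, (row5 hψ h5 e5).1] at h1
    have c1 := evV_conj (ψ := ψ) (conj7 (r := mk7 (swap 0 1 * swap 1 2 * swap 2 3 * swap 4 5) (by decide))
      (g := H251.E6.up N6R.r4) (κ := swap 4 5) (by rw [e4]; decide +kernel) (by decide) (by decide))
    have c2 := evV_conj (ψ := ψ) (conj7 (r := mk7 (swap 0 1 * swap 1 2 * swap 2 3 * swap 4 5) (by decide))
      (g := x) (κ := swap 4 5) (by rw [hx]; decide +kernel) (by decide) (by decide))
    rw [c2, ← c1]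
    exact h1
  -- the table
  have ho : orderOf x = 4 := by rw [ord7, hx]; decide
  have hx4 : ψ x ^ 4 = 1 := by
    have h0 := pow_orderOf_eq_one x
    rw [ho] at h0
    rw [← map_pow, h0, map_one]
  have ho2 : orderOf (x * x) = 2 := by
    rw [← pow_two, orderOf_pow, ho]
    decide
  have hd2 := row2 hψ h2 ho2
  obtain ⟨ζ, hζ, P, hP, h1⟩ := pat chk4 (by norm_num) 3 (by norm_num) hx4
  have e0 := (h1 0 (by norm_num)).1
  have l0 := (h1 0 (by norm_num)).2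
  have e2 := (h1 2 (by norm_num)).1
  have l2 := (h1 2 (by norm_num)).2
  have hζ2 : ζ ^ 2 = -1 := by
    have h5 : (ζ ^ 2 - 1) * (ζ ^ 2 + 1) = 0 := by
      have h6 := hζ.pow_eq_one
      linear_combination h6
    rcases mul_eq_zero.1 h5 with h6 | h6
    · exfalso
      have h7 := hζ.pow_ne_one_of_pos_of_lt (l := 2) (by norm_num) (by norm_num)
      exact h7 (sub_eq_zero.1 h6)
    · exact eq_neg_of_add_eq_zero_left h6
  have h2K : (2 : AlgebraicClosure F) ≠ 0 := by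
    have h1 : ((2 : ℕ) : AlgebraicClosure F) ≠ 0 := by
      rw [Ne, CharP.cast_eq_zero_iff (AlgebraicClosure F) 3]
      norm_num
    exact_mod_cast h1
  have hsq := E5.ev_sq h2K (V (AlgebraicClosure F) (emb (algebraMap F (AlgebraicClosure F)) (ψ x)))
  have hsq' : ev (V F (ψ (x * x))) 1 = P.1.getD 0 0 + P.1.getD 2 0 := by
    rw [← e0, ← e2, pow_zero, hζ2, ← hsq, ← ev_V_one (algebraMap F (AlgebraicClosure F)), map_mul, map_mul, map_mul, pow_two]
  rw [pow_zero, ev_V_one] at e0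
  rw [pow_zero, ev_L_one] at l0
  rw [hsq'] at hd2
  have key : ∀ P ∈ T4, P.1.getD 0 0 < 16 ∨ (P.1.getD 0 0 + P.1.getD 2 0 ≠ 32 ∧ P.1.getD 0 0 + P.1.getD 2 0 ≠ 24) ∨
      P.2.getD 0 0 = 67 ∨ P.2.getD 0 0 = 49 ∨
      (P.1.getD 0 0 = 20 ∧ P.2.getD 0 0 = 39 ∧ P.1.getD 0 0 + P.1.getD 2 0 = 32) ∨
      (P.1.getD 0 0 = 16 ∧ P.2.getD 0 0 = 35 ∧ P.1.getD 0 0 + P.1.getD 2 0 = 32) := by decide
  rw [hsq', e0, l0]
  rw [e0] at hle
  have hd2' := hd2.1
  have := key P hP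
  omega

/-- Scott's lemma on the module of degree 56 and on the adjoint module -/
theorem scott247 (h2 : (2 : F) ≠ 0) (hV : Representation.invariants (MonoidHom.comp (V F) ψ) = ⊥)
    (hinv : Representation.invariants (MonoidHom.comp (L F) ψ) = ⊥) :
    ∃ x y z : A7, (x : Perm (Fin 7)).cycleType = {2, 2} ∧ (y : Perm (Fin 7)).cycleType = {4, 2} ∧
      (z : Perm (Fin 7)).cycleType = {7} ∧
      ev (V F (ψ x)) 1 + ev (V F (ψ y)) 1 + ev (V F (ψ z)) 1 ≤ 56 ∧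
      ev (L F (ψ x)) 1 + ev (L F (ψ y)) 1 + ev (L F (ψ z)) 1 ≤ 133 := by
  obtain ⟨x, y, h, hx, hy, hxy⟩ := H251.E6.gen247
  refine ⟨x, y, x * y, hx, hy, hxy, ?_, ?_⟩
  · have h := Cfsg.Agent.H952.F4.Scott.scott_form (MonoidHom.comp (V F) ψ) (x := x) (y := y) h (sf F)
      (fun v hv => sf_nondeg' hv) (fun g v w => sf_V _ v w)
    rw [finrank_V, hV, finrank_bot, mul_zero, add_zero] at h
    exact h
  · have h := Cfsg.Agent.H952.F4.Scott.scott_form (MonoidHom.comp (L F) ψ) (x := x) (y := y) h (kf F)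
      (fun v hv => kf_nondeg h2 fun w => by rw [kf_comm]; exact hv w) (fun g v w => kf_L _ v w)
    rw [finrank_L, hinv, finrank_bot, mul_zero, add_zero] at h
    exact h

end rows

end Cfsg.Agent.R2.T1.N7
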