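import Cfsg.Agent.H952.F4.Gen
import Cfsg.Agent.H952.F4.Scott
import Cfsg.Agent.R2.T1.Inf.LCnt
import Cfsg.Agent.R2.T1.Inf.Form

/-!
# S5929, `n = 7`: Scott's lemma for the triple `(2, 4, 7)` of `A₇` (helper19)

* `gen7c`, `triple7` : `A₇` is generated by elements of order 2 and 4 whose product has order 7;
* `scott_pt` : Scott's lemma for the module of degree 56 (lift);
* `scott247L` : on the adjoint module of `Gh F` (lift), `scott247LK` : on the adjoint module, every `φ` (lift or cover).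
-/

set_option autoImplicit false
set_option maxRecDepth 100000

namespace Cfsg.Agent.R2.T1.N7.Sc

open Cfsg Cfsg.Lie Module Equiv Equiv.Perm
open Cfsg.Agent.H943.E7V.Block (D1 rho)
open Cfsg.Agent.H952.F4 (ev es MaxAlt GenT)
open Cfsg.Agent.R2.T1

universe u

theorem gen7c : GenT 7 {2, 2} {4, 2} {7} :=
  Cfsg.Agent.H952.F4.Gen.genT_of (n := 5) (c[2, 6] * c[4, 5]) (c[0, 5, 1, 3] * c[4, 6]) (by decide +kernel)
    (by decide +kernel)
    ![[],
    [],
    [0, 3, 0, 2, 2, 0, 3, 0],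
    [0, 3, 0, 2, 0, 3, 0, 2, 0, 3],
    [2, 0, 2, 0, 2, 2, 0, 2, 2, 0, 3, 0, 2],
    [2, 2, 0, 2, 0, 3, 0, 2, 0, 3, 0, 3],
    [3, 0, 2, 2, 0, 3]]
    (by decide +kernel) (by decide +kernel) (by decide +kernel) (by decide +kernel)

theorem ord7 (a : ↥(alternatingGroup (Fin 7))) : orderOf a = (a : Perm (Fin 7)).cycleType.lcm := by
  rw [lcm_cycleType, ← Subgroup.orderOf_coe]

/-- the generating triple -/
theorem triple7 : ∃ x y : ↥(alternatingGroup (Fin 7)), Subgroup.closure {x, y} = ⊤ ∧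
    (x : Perm (Fin 7)).cycleType = {2, 2} ∧ (y : Perm (Fin 7)).cycleType = {4, 2} ∧
    ((x * y : ↥(alternatingGroup (Fin 7))) : Perm (Fin 7)).cycleType = {7} ∧
    orderOf x = 2 ∧ orderOf y = 4 ∧ orderOf (x * y) = 7 := by
  obtain ⟨x, y, h, hx, hy, hxy⟩ := gen7c
  refine ⟨x, y, h, hx, hy, hxy, ?_, ?_, ?_⟩
  · rw [ord7, hx]; decide
  · rw [ord7, hy]; decide
  · rw [ord7, hxy]; decide

variable {F : Type u} [Field F] {H : Subgroup ↥(chevE7.group F)}
  {φ : ↥(alternatingGroup (Fin 7)) →* ↥(chevE7.group F)} {ψ : ↥(alternatingGroup (Fin 7)) →* Gh F}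

/-- **Scott's lemma on the module of degree 56** -/
theorem scott247 [Finite F] (hM : MaxAlt H 7 φ) (hL : Lift φ ψ) : ∃ x y z : ↥(alternatingGroup (Fin 7)),
    orderOf x = 2 ∧ orderOf y = 4 ∧ orderOf z = 7 ∧
      ev (V F (ψ x)) 1 + ev (V F (ψ y)) 1 + ev (V F (ψ z)) 1 ≤ 56 := by
  obtain ⟨x, y, h, -, -, -, hx, hy, hxy⟩ := triple7
  refine ⟨x, y, x * y, hx, hy, hxy, ?_⟩
  have h := Cfsg.Agent.H952.F4.Scott.scott_form (MonoidHom.comp (V F) ψ) (x := x) (y := y) h (sf F)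
    (fun v hv => sf_nondeg' hv) (fun g v w => sf_V _ v w)
  rw [finrank_V, no_fixed hM (by norm_num) (by norm_num) hL, finrank_bot, mul_zero, add_zero] at h
  exact h

/-- **Scott's lemma on the adjoint module** -/
theorem scott247L (h2 : (2 : F) ≠ 0) (hinv : Representation.invariants (MonoidHom.comp (L F) ψ) = ⊥) :
    ∃ x y z : ↥(alternatingGroup (Fin 7)), orderOf x = 2 ∧ orderOf y = 4 ∧ orderOf z = 7 ∧
      ev (L F (ψ x)) 1 + ev (L F (ψ y)) 1 + ev (L F (ψ z)) 1 ≤ 133 := by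
  obtain ⟨x, y, h, -, -, -, hx, hy, hxy⟩ := triple7
  refine ⟨x, y, x * y, hx, hy, hxy, ?_⟩
  have h := Cfsg.Agent.H952.F4.Scott.scott_form (MonoidHom.comp (L F) ψ) (x := x) (y := y) h (kf F)
    (fun v hv => kf_nondeg h2 fun w => by rw [kf_comm]; exact hv w) (fun g v w => kf_L _ v w)
  rw [finrank_L, hinv, finrank_bot, mul_zero, add_zero] at h
  exact h

/-- **Scott's lemma on the adjoint module**, lift or cover -/
theorem scott247LK (h2 : (2 : F) ≠ 0) (hinv : Representation.invariants (MonoidHom.comp (LK F) φ) = ⊥) :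
    ∃ x y z : ↥(alternatingGroup (Fin 7)), orderOf x = 2 ∧ orderOf y = 4 ∧ orderOf z = 7 ∧
      ev (LK F (φ x)) 1 + ev (LK F (φ y)) 1 + ev (LK F (φ z)) 1 ≤ 133 := by
  obtain ⟨x, y, h, -, -, -, hx, hy, hxy⟩ := triple7
  refine ⟨x, y, x * y, hx, hy, hxy, ?_⟩
  have h := Cfsg.Agent.H952.F4.Scott.scott_form (MonoidHom.comp (LK F) φ) (x := x) (y := y) h (kf F)
    (fun v hv => kf_nondeg h2 fun w => by rw [kf_comm]; exact hv w) (fun g v w => by
      obtain ⟨g', hg'⟩ := ad_surjective (φ g)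
      have := kf_L g' v w
      rw [L_eq, hg'] at this
      exact this)
  rw [finrank_L, hinv, finrank_bot, mul_zero, add_zero] at h
  exact h

end Cfsg.Agent.R2.T1.N7.Sc
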