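import Cfsg.Agent.R2.T1.N7.Row3

/-!
# S5929, `n = 7`, `p = 3`, lift: reduction to the pattern B (helper11)
-/

set_option autoImplicit false
set_option maxRecDepth 100000

namespace Cfsg.Agent.R2.T1.N7

open Equiv Equiv.Perm Module Cfsg Cfsg.Lie
open Cfsg.Agent.H943.E7V.Block (D1)
open Cfsg.Agent.H952.F4 (ev MaxAlt GenT)

universe u

/-- **reduction to the pattern B** -/
theorem sev3_of {F : Type u} [Field F] [Finite F] {H : Subgroup ↥(chevE7.group F)}
    {φ : ↥(alternatingGroup (Fin 7)) →* ↥(chevE7.group F)} {ψ : ↥(alternatingGroup (Fin 7)) →* Gh F}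
    (hM : MaxAlt H 7 φ) (hL : Lift φ ψ) (h3 : (3 : F) = 0)
    (hinv : Representation.invariants (MonoidHom.comp (L F) ψ) = ⊥)
    (hB : ∀ t y x : A7, orderOf t = 2 → orderOf y = 7 → orderOf x = 5 →
      ¬ (ev (V F (ψ t)) 1 = 32 ∧ ev (V F (ψ y)) 1 = 8 ∧ ev (V F (ψ x)) 1 = 16)) : False := by
  have hψ := Odd.lift_inj' hM hL
  have h2 : (2 : F) ≠ 0 := by
    intro h2
    have h1 : (1 : F) = 0 := by linear_combination h3 - h2
    exact one_ne_zero h1
  have h5 : (5 : F) ≠ 0 := by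
    intro h5
    have h1 : (1 : F) = 0 := by linear_combination 2 * h3 - h5
    exact one_ne_zero h1
  have h7 : (7 : F) ≠ 0 := by
    intro h7
    have h1 : (1 : F) = 0 := by linear_combination h7 - 2 * h3
    exact one_ne_zero h1
  obtain ⟨x, y, z, hx, hy, hz, hV, hLL⟩ := scott247 (ψ := ψ) h2 (no_fixed hM (by norm_num) (by norm_num) hL) hinv
  have ox : orderOf x = 2 := by rw [ord7, hx]; decide
  have oy : orderOf y = 4 := by rw [ord7, hy]; decide
  have oz : orderOf z = 7 := by rw [ord7, hz]; decide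
  have oyy : orderOf (y * y) = 2 := by
    rw [← pow_two, orderOf_pow, oy]
    decide
  have r2 := row2 hψ h2 ox
  have r4 := row4 hψ h3 hy
  have r7 := row7 hψ h7 hz
  -- the square
  have hyy : ((y * y : A7) : Perm (Fin 7)).cycleType = {2, 2} := by
    obtain ⟨σ, hσ⟩ := isConj_iff.1 (isConj_iff_cycleType_eq.2 (show
      (swap 0 1 * swap 1 2 * swap 2 3 * swap 4 5 : Perm (Fin 7)).cycleType = (y : Perm (Fin 7)).cycleType by
        rw [hy]; decide +kernel))
    rw [Subgroup.coe_mul, ← hσ, show σ * (swap 0 1 * swap 1 2 * swap 2 3 * swap 4 5) * σ⁻¹ *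
      (σ * (swap 0 1 * swap 1 2 * swap 2 3 * swap 4 5) * σ⁻¹) =
      σ * ((swap 0 1 * swap 1 2 * swap 2 3 * swap 4 5) * (swap 0 1 * swap 1 2 * swap 2 3 * swap 4 5)) * σ⁻¹ by group,
      cycleType_conj]
    decide +kernel
  have c1 := evV_conj (ψ := ψ) (conj7 (r := mk7 (swap 0 1 * swap 2 3) (by decide))
    (g := x) (κ := swap 4 5) (by rw [hx]; decide +kernel) (by decide) (by decide))
  have c2 := evV_conj (ψ := ψ) (conj7 (r := mk7 (swap 0 1 * swap 2 3) (by decide))
    (g := y * y) (κ := swap 4 5) (by rw [hyy]; decide +kernel) (by decide) (by decide))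
  rw [← c1] at c2
  rw [c2] at r4
  rcases r4 with h | h | ⟨h4, h4', h4''⟩ | ⟨h4, h4', h4''⟩
  · omega
  · omega
  · omega
  · have e8 : ev (V F (ψ z)) 1 = 8 := by omega
    have e5 : (mk7 (swap 0 1 * swap 1 2 * (swap 2 3 * swap 3 4)) (by decide) : Perm (Fin 7)).cycleType = {5} := by
      decide +kernel
    exact hB x z (mk7 (swap 0 1 * swap 1 2 * (swap 2 3 * swap 3 4)) (by decide)) ox oz (by rw [ord7, e5]; decide)
      ⟨h4'', e8, (row5 hψ h5 e5).1⟩

end Cfsg.Agent.R2.T1.N7
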